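import Cfsg.Agent.X9.Def2

/-! The finite check behind the main bound of `X9/Bd`. -/

set_option autoImplicit false

namespace Cfsg.Agent.X9.Bd

open Cfsg.Agent.J4 Cfsg.Agent.Comp
open Cfsg.Agent.Comp.BN (nth nth_prop)
open Cfsg.Agent.ThT (x8 p8 l12 i8 app_i8 mw)

/-- membership -/
noncomputable def mem (a : ℕ) (l : List ℕ) : Bool := force a fun a => anyL l (Nat.beq a)

theorem mem_iff {a : ℕ} {l : List ℕ} : mem a l = true ↔ a ∈ l := by
  simp [mem, anyL_iff]

/-- filter, in continuation passing style -/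
noncomputable def fl (p : ℕ → Bool) (l : List ℕ) : (List ℕ → Bool) → Bool :=
  List.rec (motive := fun _ => (List ℕ → Bool) → Bool) (fun k => k [])
    (fun a _ ih k => ite' (p a) (ih fun r => k (a :: r)) (ih k)) l

theorem fl_eq (p : ℕ → Bool) (l : List ℕ) (k : List ℕ → Bool) : fl p l k = k (l.filter p) := by
  induction l generalizing k with
  | nil => rfl
  | cons a l ih =>
    have : fl p (a :: l) k = ite' (p a) (fl p l fun r => k (a :: r)) (fl p l k) := rfl
    rw [this, ih, ih, List.filter_cons]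
    cases p a <;> simp

/-- the union of `l` and `a ^^^ l` -/
noncomputable def su (a : ℕ) (l : List ℕ) : (List ℕ → Bool) → Bool :=
  List.rec (motive := fun _ => (List ℕ → Bool) → Bool) (fun k => k [])
    (fun x _ ih k => force (Nat.xor a x) fun y => ih fun r => k (x :: y :: r)) l

theorem su_eq (a : ℕ) (l : List ℕ) (k : List ℕ → Bool) :
    su a l k = k (l.flatMap fun x => [x, a ^^^ x]) := by
  induction l generalizing k with
  | nil => rfl
  | cons x l ih =>
    have : su a (x :: l) k = force (a ^^^ x) fun y => su a l fun r => k (x :: y :: r) := rfl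
    rw [this, force_eq, ih]
    rfl

/-- all subspaces above `D` inside `R` satisfy the bound -/
noncomputable def chkD (β : ℕ) (T R Ks : List ℕ) (f : ℕ) : List ℕ → Bool :=
  Nat.rec (motive := fun _ => List ℕ → Bool) (fun _ => false) (fun _ ih D =>
    and' (fl (fun N => and' (allL D fun v => Nat.beq (app N v) v)
        (allL T fun v => mem (Nat.xor (app N v) v) D)) Ks fun K =>
          Nat.ble (Nat.mul D.length K.length) β)
      (allL R fun a => or' (mem a D) (or' (anyL D fun x => not' (mem (Nat.xor a x) R)) (su a D ih)))) f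

/-- the conclusion -/
def Cc (D K : ℕ → Prop) (β : ℕ) : Prop :=
  ∃ lD lK : List ℕ, (∀ v, D v → v ∈ lD) ∧ (∀ N, K N → N ∈ lK) ∧ lD.length * lK.length ≤ β

theorem chkD_sound {β : ℕ} {T R Ks : List ℕ} {D K : ℕ → Prop}
    (dx : ∀ v w, D v → D w → D (v ^^^ w)) (dr : ∀ v, D v → v ∈ R)
    (k : ∀ N, K N → N ∈ Ks ∧ (∀ v, D v → app N v = v) ∧ ∀ v ∈ T, D (app N v ^^^ v)) (f : ℕ) :
    ∀ l : List ℕ, (∀ v ∈ l, D v) → chkD β T R Ks f l = true → Cc D K β := by
  induction f with
  | zero => exact fun _ _ h => absurd h Bool.false_ne_true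
  | succ f ih =>
    intro l hl h
    obtain ⟨h1, h2⟩ := (and'_eq_true _ (allL R fun a => or' (mem a l) (or' (anyL l fun x =>
      not' (mem (Nat.xor a x) R)) (su a l (chkD β T R Ks f))))).1 h
    by_cases e : ∀ v, D v → v ∈ l
    · rw [fl_eq, ble_iff] at h1
      refine ⟨l, _, e, fun N hN => List.mem_filter.2 ⟨(k N hN).1, ?_⟩, h1⟩
      simp only [and'_eq_true, allL_iff, beq_iff, mem_iff]
      exact ⟨fun v hv => (k N hN).2.1 v (hl v hv), fun v hv => e _ ((k N hN).2.2 v hv)⟩
    · push Not at e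
      obtain ⟨a, ha, n⟩ := e
      have := (allL_iff _ _).1 h2 a (dr a ha)
      simp only [or'_eq_true, mem_iff, n, false_or, anyL_iff, not'_eq_true, su_eq] at this
      rcases this with ⟨x, hx, m⟩ | m
      · exact (m (dr _ (dx _ _ ha (hl x hx)))).elim
      · refine ih _ (fun v hv => ?_) m
        obtain ⟨x, hx, hv⟩ := List.mem_flatMap.1 hv
        simp only [List.mem_cons, List.not_mem_nil, or_false] at hv
        rcases hv with rfl | rfl
        exacts [hl _ hx, dx _ _ ha (hl x hx)]

/-- the vector described by an item -/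
noncomputable def vec (M n : ℕ) : ℕ :=
  ite' (Nat.blt n 256) n (Nat.xor (app M (Nat.mod n 256)) (Nat.mod n 256))

/-- branching over the subspace of index at most two -/
noncomputable def br (u M : ℕ) (k : List ℕ → Bool) (l : List ℕ) : ℕ → List ℕ → Bool :=
  List.rec (motive := fun _ => ℕ → List ℕ → Bool) (fun _ T => k T) (fun n _ ih o T =>
    force (vec M n) fun c => and' (and' (Nat.blt c 256) (Nat.beq (app M c) c))
      (and' (or' (and' (Nat.ble 256 n) (not' (Nat.beq (bil u c c) 0))) (ih o (c :: T)))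
        (or' (and' (Nat.ble 256 n) (Nat.beq (bil u c c) 0))
          (ite' (Nat.beq o 0) (ih c T) (force (Nat.xor c o) fun e => ih o (e :: T)))))) l

theorem br_sound {u M : ℕ} {k : List ℕ → Bool} {T : ℕ → Prop}
    (t1 : ∀ v < 256, ∀ w < 256, app M v = v → app M w = w → ¬ T v → ¬ T w → T (v ^^^ w))
    (tq : ∀ x < 256, T (app M x ^^^ x) ↔ bil u (app M x ^^^ x) (app M x ^^^ x) = 0) (l : List ℕ) :
    ∀ o L, o < 256 → app M o = o → (o ≠ 0 → ¬ T o) → (∀ v ∈ L, v < 256 ∧ T v) →
      br u M k l o L = true → ∃ L, (∀ v ∈ L, v < 256 ∧ T v) ∧ k L = true := by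
  induction l with
  | nil => exact fun _ L _ _ _ h e => ⟨L, h, e⟩
  | cons n l ih =>
    intro o L h1 h2 h3 h4 e
    have q : 256 ≤ n → (T (vec M n) ↔ bil u (vec M n) (vec M n) = 0) := fun hn => by
      rw [vec, ite'_eq, if_neg (by rw [blt_iff]; omega)]
      exact tq _ (Nat.mod_lt _ (by decide))
    have e' : br u M k (n :: l) o L = force (vec M n) fun c =>
      and' (and' (Nat.blt c 256) (Nat.beq (app M c) c))
      (and' (or' (and' (Nat.ble 256 n) (not' (Nat.beq (bil u c c) 0))) (br u M k l o (c :: L)))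
        (or' (and' (Nat.ble 256 n) (Nat.beq (bil u c c) 0)) (ite' (Nat.beq o 0) (br u M k l c L)
          (force (c ^^^ o) fun e => br u M k l o (e :: L))))) := rfl
    rw [e', force_eq] at e
    generalize vec M n = c at q e
    simp only [and'_eq_true, or'_eq_true, not'_eq_true, blt_iff, ble_iff, beq_iff, force_eq,
      ite'_eq] at e
    obtain ⟨⟨a1, a2⟩, a3, a4⟩ := e
    by_cases hc : T c
    · exact ih o _ h1 h2 h3 (List.forall_mem_cons.2 ⟨⟨a1, hc⟩, h4⟩)
        (a3.resolve_left fun a => a.2 ((q a.1).1 hc))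
    · have a := a4.resolve_left fun a => hc ((q a.1).2 a.2)
      split_ifs at a with h0
      · exact ih c _ a1 a2 (fun _ => hc) h4 a
      · exact ih o _ h1 h2 h3 (List.forall_mem_cons.2 ⟨⟨x8 a1 h1, t1 c a1 o h1 a2 h2 hc (h3 h0)⟩, h4⟩) a

/-- the check for one involution -/
noncomputable def chkM (u b om : ℕ) (na : List ℕ) (β M : ℕ) (l : List ℕ) : Bool :=
  fl (fun v => and' (Nat.beq (app M v) v) (and' (Nat.beq (bil u v v) 0) (not' (tb om v))))
    (List.range 256) fun F => br u M (fun T =>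
      fl (fun v => allL T fun w => Nat.beq (bil b v w) 0) F fun R =>
      fl (fun N => allL T fun v => mem (Nat.xor (app N v) v) R) na fun Ks => chkD β T R Ks 3 [0]) l 0 []

/-- alternating type -/
noncomputable def alt (b M : ℕ) : Bool := allLT 256 fun v => Nat.beq (bil b v (app M v)) 0

/-- the check for one geometry -/
noncomputable def top (d : Dt) (β : ℕ → ℕ) (cs : List (ℕ × List ℕ)) : Bool :=
  force d.u fun u => force d.b fun b => force d.om fun om => allL d.na fun M =>
    or' (not' (eq8 (mm M M) i8)) (or' (eq8 M i8) (anyL cs fun c => and' (Nat.beq c.1 M)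
      (force (ite' (alt b M) 16 (β M)) fun s => chkM u b om d.na s M c.2)))

/-- the hypotheses on codes -/
structure Hy (d : Dt) (M : ℕ) (T D K : ℕ → Prop) : Prop where
  hM : M ∈ d.na
  sq : ∀ v < 256, app M (app M v) = v
  ne : ¬ ∀ v < 256, app M v = v
  t1 : ∀ v < 256, ∀ w < 256, app M v = v → app M w = w → ¬ T v → ¬ T w → T (v ^^^ w)
  tq : ∀ x < 256, T (app M x ^^^ x) ↔ bil d.u (app M x ^^^ x) (app M x ^^^ x) = 0
  d0 : D 0
  dx : ∀ v w, D v → D w → D (v ^^^ w)
  dr : ∀ v, D v → v < 256 ∧ app M v = v ∧ bil d.u v v = 0 ∧ ¬ d.om.testBit v = true ∧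
    ∀ w < 256, T w → bil d.b v w = 0
  k : ∀ N, K N → N ∈ d.na ∧ (∀ v, D v → app N v = v) ∧ ∀ v < 256, T v → D (app N v ^^^ v)

theorem eq8_of {M N : ℕ} (h : ∀ v < 256, app M v = app N v) : eq8 M N = true :=
  (allLT_iff _ _).2 fun i hi => (beq_iff _ _).2 <| by
    rw [← app_two_pow _ (by omega), ← app_two_pow _ (by omega), h _ (p8 hi)]

theorem top_sound {d : Dt} {β : ℕ → ℕ} {cs : List (ℕ × List ℕ)} (h : top d β cs = true) {M : ℕ}
    {T D K : ℕ → Prop} (y : Hy d M T D K) : Cc D K (ite' (alt d.b M) 16 (β M)) := by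
  simp only [top, force_eq, allL_iff, or'_eq_true, not'_eq_true, anyL_iff, and'_eq_true] at h
  rcases h M y.hM with e | e | ⟨c, -, -, e⟩
  · exact (e (eq8_of fun v hv => by rw [app_mm _ _ (l12 hv), y.sq v hv, app_i8 v hv])).elim
  · exact (y.ne fun v hv => by rw [app_eq8 e v hv, app_i8 v hv]).elim
  rw [chkM, fl_eq] at e
  obtain ⟨L, hL, e⟩ := br_sound y.t1 y.tq _ 0 [] (by decide) (app_zero _) (fun n => (n rfl).elim)
    (by simp) e
  rw [fl_eq, fl_eq] at e
  have dr : ∀ v, D v → v ∈ ((List.range 256).filter fun v => and' (Nat.beq (app M v) v)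
      (and' (Nat.beq (bil d.u v v) 0) (not' (tb d.om v)))).filter
      fun v => allL L fun w => Nat.beq (bil d.b v w) 0 := fun v hv => by
    obtain ⟨a1, a2, a3, a4, a5⟩ := y.dr v hv
    simp only [List.mem_filter, List.mem_range, and'_eq_true, beq_iff, not'_eq_true, tb_eq, allL_iff]
    exact ⟨⟨a1, a2, a3, a4⟩, fun w hw => a5 w (hL w hw).1 (hL w hw).2⟩
  refine chkD_sound y.dx dr (fun N hN => ?_) 3 [0] (by simpa using y.d0) e
  obtain ⟨a1, a2, a3⟩ := y.k N hN
  have := fun v hv => a3 v (hL v hv).1 (hL v hv).2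
  exact ⟨List.mem_filter.2 ⟨a1, (allL_iff _ _).2 fun v hv => mem_iff.2 (dr _ (this v hv))⟩, a2, this⟩

/-- certificate -/
noncomputable def c27 : List (ℕ × List ℕ) := [(nat_lit 0x80040010020004008002001, [nat_lit 260, nat_lit 272, nat_lit 1, nat_lit 2, nat_lit 64, nat_lit 128]), (nat_lit 0x80020040010008002004001, [nat_lit 258, nat_lit 288, nat_lit 1, nat_lit 8, nat_lit 16, nat_lit 128]), (nat_lit 0x80010020040002004008001, [nat_lit 258, nat_lit 272, nat_lit 1, nat_lit 4, nat_lit 32, nat_lit 128]), (nat_lit 0x40080020010008004001002, [nat_lit 257, nat_lit 320, nat_lit 4, nat_lit 8, nat_lit 16, nat_lit 32]), (nat_lit 0x40080010020004008001002, [nat_lit 257, nat_lit 260, nat_lit 272, nat_lit 320]), (nat_lit 0x20040080010008001002004, [nat_lit 257, nat_lit 288, nat_lit 2, nat_lit 8, nat_lit 16, nat_lit 64]), (nat_lit 0x20010080040002001008004, [nat_lit 257, nat_lit 258, nat_lit 272, nat_lit 288]), (nat_lit 0x10040020080001004002008, [nat_lit 257, nat_lit 272, nat_lit 2, nat_lit 4, nat_lit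 32, nat_lit 64]), (nat_lit 0x10020040080001002004008, [nat_lit 257, nat_lit 258, nat_lit 272, nat_lit 288]), (nat_lit 0x8004002001080040020010, [nat_lit 257, nat_lit 258, nat_lit 260, nat_lit 264]), (nat_lit 0x8002004001080020040010, [nat_lit 257, nat_lit 258, nat_lit 260, nat_lit 264]), (nat_lit 0x4008001002040080010020, [nat_lit 257, nat_lit 258, nat_lit 260, nat_lit 264]), (nat_lit 0x4002001008010080040020, [nat_lit 257, nat_lit 258, nat_lit 260, nat_lit 264]), (nat_lit 0x2001008004020010080040, [nat_lit 257, nat_lit 258, nat_lit 260, nat_lit 264]), (nat_lit 0x2001004008010020080040, [nat_lit 257, nat_lit 258, nat_lit 260, nat_lit 264]), (nat_lit 0x1008004002040020010080, [nat_lit 257, nat_lit 258, nat_lit 260, nat_lit 264]), (nat_lit 0x1004002008010040020080, [nat_lit 257, nat_lit 258, nat_lit 260, nat_lit 264]), (nat_lit 0x1002008004020010040080, [nat_lit 257, nat_lit 258, nat_lit 260, nat_lit 264]), (nat_lit 0x1002004008010020040080, [nat_lit 257, nat_lit 258, nat_lit 260, nat_lit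 264])]

/-- certificate -/
noncomputable def c81 : List (ℕ × List ℕ) := [(nat_lit 0x80040010020004008002001, [nat_lit 260, nat_lit 272, nat_lit 1, nat_lit 2, nat_lit 64, nat_lit 128]), (nat_lit 0x80040008004020010002001, [nat_lit 260, nat_lit 264, nat_lit 1, nat_lit 2, nat_lit 64, nat_lit 128]), (nat_lit 0x80040004008010020002001, [nat_lit 260, nat_lit 264, nat_lit 1, nat_lit 2, nat_lit 64, nat_lit 128]), (nat_lit 0x80020040010008002004001, [nat_lit 258, nat_lit 288, nat_lit 1, nat_lit 8, nat_lit 16, nat_lit 128]), (nat_lit 0x80010020040002004008001, [nat_lit 258, nat_lit 272, nat_lit 1, nat_lit 4, nat_lit 32, nat_lit 128]), (nat_lit 0x80008020002040004010001, [nat_lit 258, nat_lit 264, nat_lit 1, nat_lit 4, nat_lit 32, nat_lit 128]), (nat_lit 0x80004002010008040020001, [nat_lit 258, nat_lit 260, nat_lit 1, nat_lit 8, nat_lit 16, nat_lit 128]), (nat_lit 0x80002020008010004040001, [nat_lit 258, nat_lit 264, nat_lit 1, nat_lit 4, nat_lit 32, nat_lit 128]), (nat_lit 0x80002004010008020040001,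 [nat_lit 258, nat_lit 260, nat_lit 1, nat_lit 8, nat_lit 16, nat_lit 128]), (nat_lit 0x40080020010008004001002, [nat_lit 257, nat_lit 320, nat_lit 4, nat_lit 8, nat_lit 16, nat_lit 32]), (nat_lit 0x40080010020004008001002, [nat_lit 257, nat_lit 260, nat_lit 272, nat_lit 320]), (nat_lit 0x40080008004020010001002, [nat_lit 257, nat_lit 260, nat_lit 264, nat_lit 320]), (nat_lit 0x40080004008010020001002, [nat_lit 257, nat_lit 260, nat_lit 264, nat_lit 320]), (nat_lit 0x20040080010008001002004, [nat_lit 257, nat_lit 288, nat_lit 2, nat_lit 8, nat_lit 16, nat_lit 64]), (nat_lit 0x20010080040002001008004, [nat_lit 257, nat_lit 258, nat_lit 272, nat_lit 288]), (nat_lit 0x20008080002040001010004, [nat_lit 257, nat_lit 258, nat_lit 264, nat_lit 288]), (nat_lit 0x20002080008010001040004, [nat_lit 257, nat_lit 258, nat_lit 264, nat_lit 288]), (nat_lit 0x10040020080001004002008, [nat_lit 257, nat_lit 272, nat_lit 2, nat_lit 4, nat_lit 32, nat_lit 64]), (nat_lit 0x10020040080001002004008, [nat_lit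 257, nat_lit 258, nat_lit 272, nat_lit 288]), (nat_lit 0x10004002080001040020008, [nat_lit 257, nat_lit 258, nat_lit 260, nat_lit 272]), (nat_lit 0x10002004080001020040008, [nat_lit 257, nat_lit 258, nat_lit 260, nat_lit 272]), (nat_lit 0x8040020001080004002010, [nat_lit 257, nat_lit 264, nat_lit 2, nat_lit 4, nat_lit 32, nat_lit 64]), (nat_lit 0x8020040001080002004010, [nat_lit 257, nat_lit 258, nat_lit 264, nat_lit 288]), (nat_lit 0x8004002001080040020010, [nat_lit 257, nat_lit 258, nat_lit 260, nat_lit 264]), (nat_lit 0x8002004001080020040010, [nat_lit 257, nat_lit 258, nat_lit 260, nat_lit 264]), (nat_lit 0x4040001010008080002020, [nat_lit 257, nat_lit 260, nat_lit 2, nat_lit 8, nat_lit 16, nat_lit 64]), (nat_lit 0x4010001040002080008020, [nat_lit 257, nat_lit 258, nat_lit 260, nat_lit 272]), (nat_lit 0x4008001002040080010020, [nat_lit 257, nat_lit 258, nat_lit 260, nat_lit 264]), (nat_lit 0x4002001008010080040020, [nat_lit 257, nat_lit 258, nat_lit 260, nat_lit 264]), (nat_lit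 0x2001020010008004080040, [nat_lit 257, nat_lit 258, nat_lit 4, nat_lit 8, nat_lit 16, nat_lit 32]), (nat_lit 0x2001010020004008080040, [nat_lit 257, nat_lit 258, nat_lit 260, nat_lit 272]), (nat_lit 0x2001008004020010080040, [nat_lit 257, nat_lit 258, nat_lit 260, nat_lit 264]), (nat_lit 0x2001004008010020080040, [nat_lit 257, nat_lit 258, nat_lit 260, nat_lit 264]), (nat_lit 0x1040020008010004002080, [nat_lit 257, nat_lit 264, nat_lit 2, nat_lit 4, nat_lit 32, nat_lit 64]), (nat_lit 0x1040004010008020002080, [nat_lit 257, nat_lit 260, nat_lit 2, nat_lit 8, nat_lit 16, nat_lit 64]), (nat_lit 0x1020040008010002004080, [nat_lit 257, nat_lit 258, nat_lit 264, nat_lit 288]), (nat_lit 0x1010004040002020008080, [nat_lit 257, nat_lit 258, nat_lit 260, nat_lit 272]), (nat_lit 0x1008004002040020010080, [nat_lit 257, nat_lit 258, nat_lit 260, nat_lit 264]), (nat_lit 0x1004002008010040020080, [nat_lit 257, nat_lit 258, nat_lit 260, nat_lit 264]), (nat_lit 0x1002020010008004040080, [nat_lit 257,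 nat_lit 258, nat_lit 4, nat_lit 8, nat_lit 16, nat_lit 32]), (nat_lit 0x1002010020004008040080, [nat_lit 257, nat_lit 258, nat_lit 260, nat_lit 272]), (nat_lit 0x1002008004020010040080, [nat_lit 257, nat_lit 258, nat_lit 260, nat_lit 264]), (nat_lit 0x1002004008010020040080, [nat_lit 257, nat_lit 258, nat_lit 260, nat_lit 264])]

/-- certificate -/
noncomputable def c75 : List (ℕ × List ℕ) := [(nat_lit 0x40080020010004008002001, [nat_lit 260, nat_lit 320, nat_lit 1, nat_lit 2, nat_lit 16, nat_lit 32]), (nat_lit 0x10040020080008002004001, [nat_lit 258, nat_lit 272, nat_lit 1, nat_lit 8, nat_lit 32, nat_lit 64]), (nat_lit 0x80010020040002004008001, [nat_lit 258, nat_lit 272, nat_lit 1, nat_lit 4, nat_lit 32, nat_lit 128]), (nat_lit 0x80040010020008004001002, [nat_lit 257, nat_lit 272, nat_lit 4, nat_lit 8, nat_lit 64, nat_lit 128]), (nat_lit 0x40080010020004008001002, [nat_lit 257, nat_lit 260, nat_lit 272, nat_lit 320]), (nat_lit 0x20040080010008001002004, [nat_lit 257, nat_lit 288,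 nat_lit 2, nat_lit 8, nat_lit 16, nat_lit 64]), (nat_lit 0x20010080040002001008004, [nat_lit 257, nat_lit 258, nat_lit 272, nat_lit 288]), (nat_lit 0x80020040010001004002008, [nat_lit 257, nat_lit 288, nat_lit 2, nat_lit 4, nat_lit 16, nat_lit 128]), (nat_lit 0x10020040080001002004008, [nat_lit 257, nat_lit 258, nat_lit 272, nat_lit 288]), (nat_lit 0x8004002001080040020010, [nat_lit 257, nat_lit 258, nat_lit 260, nat_lit 264]), (nat_lit 0x4008002001040080020010, [nat_lit 257, nat_lit 258, nat_lit 260, nat_lit 264]), (nat_lit 0x8004001002080040010020, [nat_lit 257, nat_lit 258, nat_lit 260, nat_lit 264]), (nat_lit 0x4008001002040080010020, [nat_lit 257, nat_lit 258, nat_lit 260, nat_lit 264]), (nat_lit 0x4002001008010080040020, [nat_lit 257, nat_lit 258, nat_lit 260, nat_lit 264]), (nat_lit 0x2008001004040010080020, [nat_lit 257, nat_lit 258, nat_lit 260, nat_lit 264]), (nat_lit 0x7c0bc0d30e30cb0c703e03d, [nat_lit 257, nat_lit 260, nat_lit 272, nat_lit 320]), (nat_lit 0xbc07c0d30e30c70cb03e03d,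 [nat_lit 257, nat_lit 260, nat_lit 3, nat_lit 12, nat_lit 21, nat_lit 65]), (nat_lit 0x7c0bc0e30d30cb0c703d03e, [nat_lit 257, nat_lit 260, nat_lit 3, nat_lit 12, nat_lit 20, nat_lit 69]), (nat_lit 0xbc07c0e30d30c70cb03d03e, [nat_lit 257, nat_lit 260, nat_lit 272, nat_lit 320]), (nat_lit 0x4001008002020080010040, [nat_lit 257, nat_lit 258, nat_lit 260, nat_lit 264]), (nat_lit 0x2001008004020010080040, [nat_lit 257, nat_lit 258, nat_lit 260, nat_lit 264]), (nat_lit 0xba0750ea0d50ae05d0ab057, [nat_lit 257, nat_lit 258, nat_lit 260, nat_lit 272]), (nat_lit 0xea0d50ba0750ab0570ae05d, [nat_lit 257, nat_lit 258, nat_lit 260, nat_lit 272]), (nat_lit 0x760b90d90e606e09d09b067, [nat_lit 257, nat_lit 258, nat_lit 272, nat_lit 288]), (nat_lit 0xe60b90d907606e09b09d067, [nat_lit 257, nat_lit 258, nat_lit 6, nat_lit 9, nat_lit 17, nat_lit 35]), (nat_lit 0x760d90b90e606709d09b06e, [nat_lit 257, nat_lit 258, nat_lit 6, nat_lit 9, nat_lit 19, nat_lit 34]), (nat_lit 0xe60d90b907606709b09d06e, [nat_lit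 257, nat_lit 258, nat_lit 272, nat_lit 288]), (nat_lit 0x6e09b09d0670e60b90d9076, [nat_lit 257, nat_lit 258, nat_lit 260, nat_lit 264]), (nat_lit 0x3e03d0c70cb0d30e30bc07c, [nat_lit 257, nat_lit 258, nat_lit 260, nat_lit 264]), (nat_lit 0x1008004002040020010080, [nat_lit 257, nat_lit 258, nat_lit 260, nat_lit 264]), (nat_lit 0x1002004008010020040080, [nat_lit 257, nat_lit 258, nat_lit 260, nat_lit 264]), (nat_lit 0xb90760e60d909d06e06709b, [nat_lit 257, nat_lit 258, nat_lit 260, nat_lit 272]), (nat_lit 0xd90e60760b909b06706e09d, [nat_lit 257, nat_lit 258, nat_lit 260, nat_lit 272]), (nat_lit 0x750ba0d50ea05d0ae0570ab, [nat_lit 257, nat_lit 258, nat_lit 272, nat_lit 288]), (nat_lit 0x750ea0d50ba0570ae05d0ab, [nat_lit 257, nat_lit 258, nat_lit 5, nat_lit 10, nat_lit 17, nat_lit 35]), (nat_lit 0xd50ba0750ea05d0ab0570ae, [nat_lit 257, nat_lit 258, nat_lit 5, nat_lit 10, nat_lit 19, nat_lit 34]), (nat_lit 0xd50ea0750ba0570ab05d0ae, [nat_lit 257, nat_lit 258, nat_lit 272, nat_lit 288]),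 (nat_lit 0x570ae05d0ab0750ea0d50ba, [nat_lit 257, nat_lit 258, nat_lit 260, nat_lit 264]), (nat_lit 0x3d03e0cb0c70e30d307c0bc, [nat_lit 257, nat_lit 258, nat_lit 260, nat_lit 264]), (nat_lit 0xd30e307c0bc03e03d0cb0c7, [nat_lit 257, nat_lit 258, nat_lit 260, nat_lit 272]), (nat_lit 0xe30d30bc07c03d03e0c70cb, [nat_lit 257, nat_lit 258, nat_lit 260, nat_lit 272]), (nat_lit 0x6709d09b06e0760d90b90e6, [nat_lit 257, nat_lit 258, nat_lit 260, nat_lit 264]), (nat_lit 0x5d0ab0570ae0d50ba0750ea, [nat_lit 257, nat_lit 258, nat_lit 260, nat_lit 264])]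

/-- certificate -/
noncomputable def c15 : List (ℕ × List ℕ) := [(nat_lit 0x80040008004020010002001, [nat_lit 260, nat_lit 264, nat_lit 1, nat_lit 2, nat_lit 64, nat_lit 128]), (nat_lit 0x80020040010008002004001, [nat_lit 258, nat_lit 288, nat_lit 1, nat_lit 8, nat_lit 16, nat_lit 128]), (nat_lit 0x80008020002040004010001, [nat_lit 258, nat_lit 264, nat_lit 1, nat_lit 4, nat_lit 32, nat_lit 128]), (nat_lit 0x40080010020004008001002, [nat_lit 257, nat_lit 260, nat_lit 272, nat_lit 320]), (nat_lit 0x40080004008010020001002, [nat_lit 257, nat_lit 260, nat_lit 264, nat_lit 320]), (nat_lit 0x20010080040002001008004, [nat_lit 257, nat_lit 258, nat_lit 272, nat_lit 288]), (nat_lit 0x20002080008010001040004, [nat_lit 257, nat_lit 258, nat_lit 264, nat_lit 288]), (nat_lit 0x10040020080001004002008, [nat_lit 257, nat_lit 272, nat_lit 2, nat_lit 4, nat_lit 32, nat_lit 64]), (nat_lit 0x10020040080001002004008, [nat_lit 257, nat_lit 258, nat_lit 272, nat_lit 288]), (nat_lit 0x8004002001080040020010,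 [nat_lit 257, nat_lit 258, nat_lit 260, nat_lit 264]), (nat_lit 0x8002004001080020040010, [nat_lit 257, nat_lit 258, nat_lit 260, nat_lit 264]), (nat_lit 0x4040001010008080002020, [nat_lit 257, nat_lit 260, nat_lit 2, nat_lit 8, nat_lit 16, nat_lit 64]), (nat_lit 0x4008001002040080010020, [nat_lit 257, nat_lit 258, nat_lit 260, nat_lit 264]), (nat_lit 0x2001020010008004080040, [nat_lit 257, nat_lit 258, nat_lit 4, nat_lit 8, nat_lit 16, nat_lit 32]), (nat_lit 0x2001008004020010080040, [nat_lit 257, nat_lit 258, nat_lit 260, nat_lit 264]), (nat_lit 0x1010004040002020008080, [nat_lit 257, nat_lit 258, nat_lit 260, nat_lit 272]), (nat_lit 0x1004002008010040020080, [nat_lit 257, nat_lit 258, nat_lit 260, nat_lit 264]), (nat_lit 0x1002010020004008040080, [nat_lit 257, nat_lit 258, nat_lit 260, nat_lit 272]), (nat_lit 0x1002004008010020040080, [nat_lit 257, nat_lit 258, nat_lit 260, nat_lit 264])]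

/-- certificate -/
noncomputable def c9 : List (ℕ × List ℕ) := [(nat_lit 0x40080010020004008001002, [nat_lit 257, nat_lit 260, nat_lit 272, nat_lit 320]), (nat_lit 0x20010080040002001008004, [nat_lit 257, nat_lit 258, nat_lit 272, nat_lit 288]), (nat_lit 0x10020040080001002004008, [nat_lit 257, nat_lit 258, nat_lit 272, nat_lit 288]), (nat_lit 0x8004002001080040020010, [nat_lit 257, nat_lit 258, nat_lit 260, nat_lit 264]), (nat_lit 0x4008001002040080010020, [nat_lit 257, nat_lit 258, nat_lit 260, nat_lit 264]), (nat_lit 0x2001008004020010080040, [nat_lit 257, nat_lit 258, nat_lit 260, nat_lit 264]), (nat_lit 0x1002004008010020040080, [nat_lit 257, nat_lit 258, nat_lit 260, nat_lit 264])]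

/-- certificate -/
noncomputable def o15 : List ℕ := [nat_lit 780, nat_lit 889, nat_lit 950, nat_lit 1360, nat_lit 1387, nat_lit 1438, nat_lit 2669, nat_lit 2711, nat_lit 2720, nat_lit 3075, nat_lit 3286, nat_lit 3305, nat_lit 4386, nat_lit 4461, nat_lit 4566, nat_lit 5914, nat_lit 5940, nat_lit 5958, nat_lit 6477, nat_lit 6498, nat_lit 6591, nat_lit 6679, nat_lit 6820, nat_lit 6907, nat_lit 7295, nat_lit 7299, nat_lit 7380, nat_lit 8721, nat_lit 8862, nat_lit 8937, nat_lit 9515, nat_lit 9560, nat_lit 9719, nat_lit 9855, nat_lit 9870, nat_lit 9873, nat_lit 11045, nat_lit 11064, nat_lit 11145, nat_lit 11331, nat_lit 11455, nat_lit 11496, nat_lit 12395, nat_lit 12439, nat_lit 12480, nat_lit 13335, nat_lit 13506, nat_lit 13565, nat_lit 14379, nat_lit 14529, nat_lit 14590, nat_lit 17196, nat_lit 17265, nat_lit 17375, nat_lit 17529, nat_lit 17544, nat_lit 17559, nat_lit 17943, nat_lit 18072, nat_lit 18159, nat_lit 19021, nat_lit 19105, nat_lit 19198, nat_lit 19737, nat_lit 19786, nat_lit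 19905, nat_lit 20485, nat_lit 20662, nat_lit 20713, nat_lit 21119, nat_lit 21125, nat_lit 21170, nat_lit 22565, nat_lit 22751, nat_lit 22760, nat_lit 25113, nat_lit 25320, nat_lit 25335, nat_lit 25713, nat_lit 25737, nat_lit 25854, nat_lit 27397, nat_lit 27440, nat_lit 27528, nat_lit 27914, nat_lit 27921, nat_lit 28096, nat_lit 28995, nat_lit 29028, nat_lit 29089, nat_lit 30979, nat_lit 31044, nat_lit 31136, nat_lit 32540, nat_lit 32550, nat_lit 32594, nat_lit 33564, nat_lit 33714, nat_lit 33775, nat_lit 34130, nat_lit 34190, nat_lit 34301, nat_lit 34884, nat_lit 34923, nat_lit 34998, nat_lit 35115, nat_lit 35172, nat_lit 35295, nat_lit 36390, nat_lit 36485, nat_lit 36546, nat_lit 37158, nat_lit 37332, nat_lit 37371, nat_lit 38666, nat_lit 38704, nat_lit 38724, nat_lit 38982, nat_lit 39090, nat_lit 39165, nat_lit 40453, nat_lit 40482, nat_lit 40640, nat_lit 40970, nat_lit 41081, nat_lit 41174, nat_lit 41290, nat_lit 41329, nat_lit 41407, nat_lit 42010, nat_lit 42196, nat_lit 42223,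 nat_lit 45650, nat_lit 45699, nat_lit 45720, nat_lit 46595, nat_lit 46672, nat_lit 46728, nat_lit 48921, nat_lit 48940, nat_lit 49057, nat_lit 49200, nat_lit 49261, nat_lit 49310, nat_lit 49464, nat_lit 49485, nat_lit 49655, nat_lit 49716, nat_lit 49806, nat_lit 49915, nat_lit 54300, nat_lit 54417, nat_lit 54436, nat_lit 54796, nat_lit 54801, nat_lit 54944, nat_lit 57155, nat_lit 57176, nat_lit 57225, nat_lit 59436, nat_lit 59480, nat_lit 59490, nat_lit 59660, nat_lit 59682, nat_lit 59728, nat_lit 61254, nat_lit 61315, nat_lit 61348, nat_lit 63269, nat_lit 63330, nat_lit 63425, nat_lit 64282, nat_lit 64401, nat_lit 64450, nat_lit 64820, nat_lit 64901, nat_lit 64920, nat_lit 65080, nat_lit 65098, nat_lit 65124]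

/-- the bound for `d15` -/
noncomputable def β15 (M : ℕ) : ℕ := ite' (mem (Nat.add (Nat.mul 256 (app M 3)) (app M 12)) o15) 8 32

theorem top27 : top d27 (fun _ => 32) c27 = true := by decide +kernel
theorem top81 : top d81 (fun _ => 32) c81 = true := by decide +kernel
theorem top75 : top d75 (fun _ => 32) c75 = true := by decide +kernel
theorem top15 : top d15 β15 c15 = true := by decide +kernel
theorem top9 : top d9 (fun _ => 8) c9 = true := by decide +kernel

theorem β15_le (M : ℕ) : β15 M ≤ 32 := by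
  rw [β15, ite'_eq]; split_ifs <;> omega

theorem o15_word (W : List ℕ) : app (mw d15.ls W) 3 < 256 ∧ app (mw d15.ls W) 12 < 256 ∧
    256 * app (mw d15.ls W) 3 + app (mw d15.ls W) 12 ∈ o15 := by
  have k : ∀ k, (allL o15 fun p => force (app (d15.ls k) (Nat.div p 256)) fun a =>
      force (app (d15.ls k) (Nat.mod p 256)) fun b => and' (and' (Nat.blt a 256) (Nat.blt b 256))
        (mem (Nat.add (Nat.mul 256 a) b) o15)) = true :=
    nth_prop (fun M => (allL o15 fun p => force (app M (Nat.div p 256)) fun a =>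
      force (app M (Nat.mod p 256)) fun b => and' (and' (Nat.blt a 256) (Nat.blt b 256))
        (mem (Nat.add (Nat.mul 256 a) b) o15)) = true) _ _ (by decide +kernel)
      ((allL_iff _ _).1 (by decide +kernel))
  induction W with
  | nil => exact ⟨by decide +kernel, by decide +kernel, mem_iff.1 (by decide +kernel)⟩
  | cons j W ih =>
    have := (allL_iff _ _).1 (k j) _ ih.2.2
    have e1 (x y : ℕ) (h : y < 256) : Nat.div (256 * x + y) 256 = x := by
      change (256 * x + y) / 256 = x; omega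
    have e2 (x y : ℕ) (h : y < 256) : Nat.mod (256 * x + y) 256 = y := by
      change (256 * x + y) % 256 = y; omega
    rw [e1 _ _ ih.2.1, e2 _ _ ih.2.1] at this
    simp only [force_eq, and'_eq_true, blt_iff, mem_iff] at this
    rw [show mw d15.ls (j :: W) = mm (d15.ls j) (mw d15.ls W) from rfl, app_mm _ _ (by decide),
      app_mm _ _ (by decide)]
    exact ⟨this.1.1, this.1.2, this.2⟩

theorem fix_tr : ∀ i < 8, i ≠ 0 → ((List.range 256).filter fun v => Nat.beq (app (tr i) v) v).length = 16 := by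
  decide +kernel

end Cfsg.Agent.X9.Bd
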