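import Cfsg.Agent.X9.BdA

/-! The main bound of `X9/Bd`. -/

set_option autoImplicit false

namespace Cfsg.Agent.X9.Bd

open Subgroup Cfsg.Agent.TT Cfsg.Agent.LES Cfsg.Agent.XSC Cfsg.Agent.XSC.WC Cfsg.Agent.XW
  Cfsg.Agent.J4 Cfsg.Agent.Comp
open Cfsg.Agent.Comp.BN (nth ev ev_cons)
open Cfsg.Agent.X7 (mem_c eqv_one_iff_mem)
open Cfsg.Agent.ThT (x8 p8 l12 i8 app_i8 mw)

theorem card_le_lists {α : Type*} (f g : α → ℕ) (l m : List ℕ) (hf : ∀ a, f a ∈ l)
    (hg : ∀ a, g a ∈ m) (inj : ∀ a b, f a = f b → g a = g b → a = b) :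
    Nat.card α ≤ l.length * m.length := by
  have := Nat.card_le_card_of_injective (β := Fin l.length × Fin m.length)
    (fun a => (⟨l.idxOf (f a), List.idxOf_lt_length_of_mem (hf a)⟩,
      ⟨m.idxOf (g a), List.idxOf_lt_length_of_mem (hg a)⟩)) fun a b e => by
    simp only [Prod.mk.injEq, Fin.mk.injEq] at e
    exact inj a b ((List.idxOf_inj (hf a)).1 e.1) ((List.idxOf_inj (hg a)).1 e.2)
  simpa using this

variable {G : Type*} [Group G] [Finite G] {z t x : G} {ψ : ℕ → G} {d : Dt} {u b M v : ℕ}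

/-- a conjugate of `z` in `C(z) \ Q` -/
structure Out (z t : G) : Prop where
  xh : XH z
  conj : IsConj z t
  tz : t * z = z * t
  out : t ∉ O2C z

/-- a common neighbour -/
def Nb (z t : G) : Prop := ∃ s, FP z s ∧ t ∈ O2C s

/-- `t` is of alternating type on `Q` -/
def Alt (z t : G) : Prop := ∀ x ∈ O2C z, x * (t * x * t⁻¹) = t * x * t⁻¹ * x

namespace Out

variable (o : Out z t)
include o

omit [Finite G] in
theorem ht : XH t := o.xh.of_isConj o.conj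

omit [Finite G] in
theorem ne : t ≠ z := fun e => o.out (e ▸ o.xh.xs.z_mem)

theorem symm : Out t z := ⟨o.ht, o.conj.symm, o.tz.symm, fun m =>
  o.out (FP.z_mem ⟨o.ht, o.conj.symm, m, o.ne.symm⟩)⟩

theorem nb_symm (n : Nb z t) : Nb t z := by
  obtain ⟨s, k, m⟩ := n
  exact ⟨s, FP.symm ⟨k.ht, k.conj.symm.trans o.conj, m, fun e => o.out (e ▸ k.mem)⟩, k.z_mem⟩

theorem eq_of {y : G} (hx : x ∈ O2C t) (hy : y ∈ O2C t) (e : Eqv z x y) : x = y :=
  e.resolve_right fun e => o.symm.out (by simpa [e] using mul_mem (inv_mem hy) hx)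

theorem dd_inv (y : G) : t * dd t y * t⁻¹ = (dd t y)⁻¹ := by
  have e : t⁻¹ = t := o.ht.xs.z_inv
  rw [dd, show t * (t * y * t⁻¹ * y⁻¹) * t⁻¹ = t * t * y * t⁻¹ * y⁻¹ * t⁻¹ by group, o.ht.zz, mul_inv_rev,
    mul_inv_rev, mul_inv_rev, inv_inv, inv_inv, e]
  group

theorem card_le {A : Subgroup G} (hA : ∀ x ∈ O2C z, dd t x ∈ A) :
    512 ≤ Nat.card A * Nat.card (O2C z ⊓ centralizer {t} : Subgroup G) := by
  let f : O2C z → A := fun x => ⟨_, hA x x.2⟩
  have r := fun x => Function.invFun_eq (f := f) ⟨x, rfl⟩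
  rw [← o.xh.card, ← Nat.card_prod]
  refine Nat.card_le_card_of_injective (fun x => (f x, ⟨(Function.invFun f (f x)).1⁻¹ * x,
    (O2C z).mul_mem ((O2C z).inv_mem (Subtype.prop _)) x.2, mem_c.2 ?_⟩)) fun x y e => ?_
  · have := congrArg Subtype.val (r x)
    generalize Function.invFun f (f x) = y at this
    obtain ⟨x, hx⟩ := x
    obtain ⟨y, hy⟩ := y
    simp only [f, dd] at this ⊢
    have e : y⁻¹ * x * t⁻¹ = t⁻¹ * (y⁻¹ * x) := by
      have : x * t⁻¹ * x⁻¹ = y * t⁻¹ * y⁻¹ := by simpa [mul_assoc] using this.symm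
      rw [show y⁻¹ * x * t⁻¹ = y⁻¹ * (x * t⁻¹ * x⁻¹) * x by group, this]
      group
    simpa using (comm_inv_left e.symm).symm
  · obtain ⟨e1, e2⟩ := Prod.mk.inj e
    have := congrArg Subtype.val e2
    simp only [e1, mul_right_inj] at this
    exact Subtype.ext this

theorem lower_alt (a : Alt z t) : 16 < Nat.card (O2C z ⊓ centralizer {t} : Subgroup G) := by
  have := o.card_le (A := O2C z ⊓ centralizer {t}) fun x hx => by
    refine ⟨dd_mem o.xh.lx o.tz hx, mem_c.2 (comm_of_conj_eq ((o.dd_inv x).trans ?_)).symm⟩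
    refine inv_eq_of_mul_eq_one_right ?_
    rw [← sqv_eq_zero, sqv_dd o.xh.lx o.tz hx, cmv_eq_zero, ← mul_left_inj x, dd_mul_self,
      mul_assoc x, dd_mul_self, ← a x hx]
  nlinarith

theorem lower : 8 < Nat.card (O2C z ⊓ centralizer {t} : Subgroup G) := by
  have xs := o.xh.xs
  let A : Subgroup G :=
    { carrier := {y | y ∈ O2C z ∧ Eqv z (t * y * t⁻¹) y}
      one_mem' := ⟨one_mem _, Or.inl (by simp)⟩
      mul_mem' := fun {x y} hx hy => ⟨mul_mem hx.1 hy.1, by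
        rw [← conj_mul]; exact eqv_mul xs hy.1 hx.2 hy.2⟩
      inv_mem' := fun {x} hx => ⟨inv_mem hx.1, ((((eqv_inv xs hx.1).conj o.tz).trans xs.z_sq
        hx.2).trans xs.z_sq ((eqv_inv xs hx.1).symm xs.z_sq))⟩ }
  have h1 := o.card_le (A := A) fun x hx =>
    have m := dd_mem o.xh.lx o.tz hx
    ⟨m, o.dd_inv x ▸ eqv_inv xs m⟩
  have h2 := card_le_two_mul_of_mul_mem (A := A) (B := O2C z ⊓ centralizer {t})
    (fun y hy => ⟨hy.1, Or.inl (conj_eq_of_comm (mem_c.1 hy.2).symm)⟩) fun x hx y hy n1 n2 => by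
      have e1 := hx.2.resolve_left fun e => n1 ⟨hx.1, mem_c.2 (comm_of_conj_eq e).symm⟩
      have e2 := hy.2.resolve_left fun e => n2 ⟨hy.1, mem_c.2 (comm_of_conj_eq e).symm⟩
      refine ⟨mul_mem hx.1 hy.1, mem_c.2 (comm_of_conj_eq ?_).symm⟩
      rw [← conj_mul, e1, e2, mul_assoc, ← mul_assoc z, ← xs.z_comm y hy.1, mul_assoc y, xs.z_sq, mul_one]
  nlinarith

variable (h : CF z ψ u b)
include h

omit [Finite G] o in
theorem fix (a : Ac z ψ t M) (hv : v < 256) (e : Eqv z x (ψ v)) (c : t * x = x * t) : app M v = v :=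
  h.inj _ (a.2 v hv).1 v hv (((h.ac_eqv a hv e).symm h.zz).trans h.zz (by rwa [conj_eq_of_comm c]))

omit [Finite G] o in
theorem dd_eqv (a : Ac z ψ t M) (hv : v < 256) : Eqv z (dd t (ψ v)) (ψ (app M v ^^^ v)) :=
  h.mul_eqv (a.2 v hv).1 hv (a.2 v hv).2 (eqv_inv h.xs (h.mem v))

omit [Finite G] o in
theorem alt_iff (a : Ac z ψ t M) : Alt z t ↔ alt b M = true := by
  simp only [alt, allLT_iff, beq_iff]
  refine ⟨fun e v hv => (h.comm_iff hv (a.2 v hv).1 (Eqv.refl _ _) (a.2 v hv).2).1 (e _ (h.mem v)),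
    fun e x hx => ?_⟩
  obtain ⟨v, hv, c⟩ := h.onto x hx
  exact (h.comm_iff hv (a.2 v hv).1 c (h.ac_eqv a hv c)).2 (e v hv)

omit o in
theorem card_fix (a : Ac z ψ t M) {l : List ℕ} (hl : ∀ v < 256, app M v = v → v ∈ l) :
    Nat.card (O2C z ⊓ centralizer {t} : Subgroup G) ≤ l.length * 2 := by
  classical
  choose f h1 h2 using fun x : (O2C z ⊓ centralizer {t} : Subgroup G) => h.onto x x.2.1
  refine card_le_lists f (fun x => if x = ψ (f x) then 0 else 1) l [0, 1]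
    (fun x => hl _ (h1 x) (fix h a (h1 x) (h2 x) (mem_c.1 x.2.2).symm)) (fun x => by split_ifs <;> simp)
    fun x y e1 e2 => Subtype.ext ?_
  have a1 := h2 x
  have a2 := h2 y
  rw [e1] at a1 e2
  split_ifs at e2 with c1 c2 c2
  · rw [c1, c2]
  · rw [a1.resolve_left c1, a2.resolve_left c2]

end Out

theorem core (h : Cs z ψ d) (o : Out z t) (n : ¬ Nb z t) {β : ℕ → ℕ} {cs : List (ℕ × List ℕ)}
    (tp : top d β cs = true) (hN : ∀ g ∈ O2C t ⊓ centralizer {z}, ∃ N ∈ d.na, Ac z ψ g N) :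
    ∃ M, Ac z ψ t M ∧
      Nat.card (O2C t ⊓ centralizer {z} : Subgroup G) ≤ ite' (alt d.b M) 16 (β M) := by
  have xt := o.ht.xs
  have xs := h.xs
  obtain ⟨M, hM, a⟩ := hN t ⟨xt.z_mem, mem_c.2 o.tz⟩
  refine ⟨M, a, ?_⟩
  obtain ⟨lD, lK, h1, h2, h3⟩ := top_sound tp (M := M) (T := fun v => ψ v * t = t * ψ v)
    (D := fun v => v < 256 ∧ ∃ x ∈ O2C t, Eqv z x (ψ v))
    (K := fun N => N ∈ d.na ∧ ∃ g ∈ O2C t, Ac z ψ g N) <| by
    refine ⟨hM, fun v hv => ?_, fun e => o.out (h.mem_of_ac a e), fun v hv w hw e1 e2 n1 n2 => ?_,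
      fun x hx => ?_, ⟨by decide, 1, one_mem _, h.zero.symm h.zz⟩,
      fun v w ⟨hv, x, hx, e⟩ ⟨hw, y, hy, f⟩ => ⟨x8 hv hw, _, mul_mem hx hy, h.mul_eqv hv hw e f⟩,
      fun v ⟨hv, x, hx, e⟩ => ?_, fun N ⟨hN, g, hg, c⟩ => ⟨hN, fun v ⟨hv, x, hx, e⟩ => ?_,
        fun v hv e => ⟨x8 (c.2 v hv).1 hv, _, ?_, Out.dd_eqv h.toCF c hv⟩⟩⟩
    · have := h.ac_mul a a
      rw [o.ht.zz] at this
      rw [← app_mm _ _ (l12 hv), h.ac_unique this (h.ac_of_mem (one_mem _)) hv, app_i8 v hv]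
    · have a1 := (a.2 v hv).2
      have a2 := (a.2 w hw).2
      rw [e1] at a1
      rw [e2] at a2
      refine comm_of_eqv o.tz.symm (h.add v hv w hw) (comm_of_conj_eq ?_).symm
      rw [← conj_mul, a1.resolve_left fun e => n1 (comm_of_conj_eq e).symm,
        a2.resolve_left fun e => n2 (comm_of_conj_eq e).symm, mul_assoc, ← mul_assoc z,
        ← xs.z_comm _ (h.mem w), mul_assoc (ψ w), xs.z_sq, mul_one]
    · have e := Out.dd_eqv h.toCF a hx
      rw [← h.sq_iff (x8 (a.2 x hx).1 hx) e]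
      refine ⟨fun c => ?_, fun c => comm_of_eqv o.tz.symm (e.symm h.zz) (comm_of_conj_eq ?_).symm⟩
      · have := o.dd_inv (ψ x)
        rw [conj_eq_of_comm (comm_of_eqv o.tz.symm e c).symm] at this
        exact mul_eq_one_iff_eq_inv.2 this
      · rw [o.dd_inv, inv_eq_of_mul_eq_one_right c]
    · have m := e.mem xs.z_mem (h.mem v)
      refine ⟨hv, Out.fix h.toCF a hv e (xt.z_comm x hx).symm, (h.sq_iff hv e).1 ?_, fun c => n ?_,
        fun w hw c => (h.comm_iff hv hw e (Eqv.refl _ _)).1 ?_⟩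
      · exact o.eq_of (mul_mem hx hx) (one_mem _) (eqv_sq_one xs m)
      · have k := (h.fp_iff e).2 ((h.om v hv).2 c)
        exact ⟨x, k, FP.z_mem ⟨o.ht, o.conj.symm.trans k.conj, hx, fun e => o.out (e ▸ m)⟩⟩
      · exact (comm_of_conj_eq (o.eq_of (o.ht.lx.norm _ c x hx) hx (xs.conj (h.mem w) m))).symm
    · have m := e.mem xs.z_mem (h.mem v)
      exact Out.fix h.toCF c hv e
        (comm_of_conj_eq (o.symm.eq_of (h.xh.lx.norm _ c.1 x m) m (xt.conj hg hx)))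
    · rw [← dd_inv_swap]
      exact inv_mem (dd_mem o.ht.lx e hg)
  refine le_trans ?_ h3
  choose N n1 n2 using fun g : (O2C t ⊓ centralizer {z} : Subgroup G) => hN g g.2
  have r := fun g => Function.invFun_eq (f := N) ⟨g, rfl⟩
  have m := fun g => h.inv_mul_mem (r g ▸ n2 (Function.invFun N (N g))) (n2 g)
  have m' := fun g => (O2C t).mul_mem ((O2C t).inv_mem (Function.invFun N (N g)).2.1) g.2.1
  choose f f1 f2 using fun g => h.onto _ (m g)
  refine card_le_lists f N lD lK (fun g => h1 _ ⟨f1 g, _, m' g, f2 g⟩)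
    (fun g => h2 _ ⟨n1 g, g, g.2.1, n2 g⟩) fun g k e1 e2 => Subtype.ext ?_
  have := o.eq_of (m' g) (m' k) ((f2 g).trans h.zz (e1 ▸ (f2 k).symm h.zz))
  rwa [e2, mul_right_inj] at this

omit [Finite G] in
theorem cs_conj (h : Cs z ψ d) {c : G} (hc : c * z = z * c) : Cs z (fun v => c * ψ v * c⁻¹) d := by
  have := h.map_conj c
  rwa [conj_eq_of_comm hc] at this

theorem main (h : Cs z ψ d) (ok : d.ok = true) (od : d.odd) (o : Out z t) (n : ¬ Nb z t)
    {β : ℕ → ℕ} {cs : List (ℕ × List ℕ)} (tp : top d β cs = true) :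
    ∃ φ M, Cs z φ d ∧ Ac z φ t M ∧
      Nat.card (O2C t ⊓ centralizer {z} : Subgroup G) ≤ ite' (alt d.b M) 16 (β M) := by
  obtain ⟨c, hc, e⟩ := h.exists_fix ok od (P := O2C t ⊓ centralizer {z})
    (O2C_isPGroup t).to_inf_left inf_le_right
  have cz := mem_c.1 (C0_le h.xh hc)
  obtain ⟨M, a⟩ := core (cs_conj h cz) o n tp fun g hg => (e g hg).imp fun N a => ⟨a.1, by
    have := a.2.map_conj c
    rwa [conj_eq_of_comm cz, show c * (c⁻¹ * g * c) * c⁻¹ = g by group] at this⟩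
  exact ⟨_, M, cs_conj h cz, a⟩

theorem nb_le (h : Cs z ψ d) (ok : d.ok = true) (o : Out z t) (n : Nb z t) :
    Nat.card (O2C z ⊓ centralizer {t} : Subgroup G) ≤ 32 := by
  obtain ⟨s, k, m⟩ := n
  obtain ⟨ρ, hρ⟩ := h.exists_ls ok
  obtain ⟨e, -, c⟩ := h.trans ok (fun k => (hρ k).2) k
  have a := (h.ac_word (fun k => (hρ k).2) e.2).1
  have k' := (h.fp ok).cj a
  obtain ⟨p, hp, rfl⟩ := exists_conj_of_eqv h.xs k'.mem k'.t_ne k'.ne (c.symm h.zz)
  have h' := cs_conj (cs_conj h a) (h.xs.z_comm p hp)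
  obtain ⟨i, hi, f⟩ := h'.aA' t m o.tz
  have i0 : i ≠ 0 := by
    rintro rfl
    exact o.out (h'.mem_of_ac f app_i8)
  have := Out.card_fix h'.toCF f (l := (List.range 256).filter fun v => Nat.beq (app (tr i) v) v)
    fun v hv e => List.mem_filter.2 ⟨List.mem_range.2 hv, (beq_iff _ _).2 e⟩
  rwa [fix_tr i hi i0] at this

end Cfsg.Agent.X9.Bd
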