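import Cfsg.Agent.X9.Def2

/-! The order of `C(z)/Q` and the invariance of the relation `ψ v ∈ Q_{ψ p}`. -/

set_option autoImplicit false

namespace Cfsg.Agent.X9

open Subgroup Cfsg.Agent.TT Cfsg.Agent.LES Cfsg.Agent.XSC Cfsg.Agent.XSC.WC Cfsg.Agent.XW
  Cfsg.Agent.J4 Cfsg.Agent.Comp
open Cfsg.Agent.Comp.BN (nth ev ev_cons)
open Cfsg.Agent.X7 (mem_c eqv_one_iff_mem)
open Cfsg.Agent.ThT (x8 p8 l12 i8 app_i8 mw)

variable {G : Type*} [Group G] {z g s t x : G} {ψ : ℕ → G} {d : Dt} {u b M p v : ℕ}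

theorem pCore_cent (z : G) :
    pCore 2 (centralizer ({z} : Set G)) = (O2C z).subgroupOf (centralizer {z}) := by
  rw [O2C, subgroupOf, comap_map_eq_self_of_injective (subtype_injective _)]

theorem XH.ord2 (h : XH z) : orderOf z = 2 := h.lx.orderOf_z

theorem XH.le_c (h : XH z) : O2C z ≤ centralizer {z} := fun x hx => mem_c.2 (h.xs.z_comm x hx)

variable [Finite G]

theorem FP.mem_eqv (k : FP z s) (e : Eqv z t s) (hx : x ∈ O2C z) (m : x ∈ O2C s) : x ∈ O2C t := by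
  obtain ⟨q, hq, rfl⟩ := exists_conj_of_eqv k.xs k.mem k.t_ne k.ne e
  rw [mem_O2C_conj]
  simpa using k.E_conj hx m (inv_mem hq)

theorem CF.ac_L (h : CF z ψ u b) (a : Ac z ψ g M) (hp : p < 256) (k : FP z (ψ p)) (hv : v < 256) :
    ψ (app M v) ∈ O2C (ψ (app M p)) ↔ ψ v ∈ O2C (ψ p) := by
  have k' := k.cj a.1
  have e := (a.2 p hp).2
  have f := (a.2 v hv).2
  have k2 := k'.of_eqv (e.symm h.zz)
  refine ⟨fun m => ?_, fun m => k'.mem_eqv (e.symm h.zz) (h.mem _)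
    ((f.symm h.zz).mem k'.z_mem (conj_mem_O2C_conj g m))⟩
  have := f.mem k'.z_mem (k2.mem_eqv e (h.mem _) m)
  rw [mem_O2C_conj] at this
  simpa [mul_assoc] using this

theorem Cs.relIndex_le (h : Cs z ψ d) (ok : d.ok = true) :
    (O2C z).relIndex (centralizer {z}) ≤ d.tv.length * d.na.length := by
  obtain ⟨ρ, hρ⟩ := h.exists_ls ok
  have k : ∀ q : centralizer ({z} : Set G) ⧸ (O2C z).subgroupOf (centralizer {z}),
      ∃ e : Fin d.tv.length × Fin d.na.length,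
        Ac z ψ ((ev ρ (d.tv.get e.1).2)⁻¹ * q.out) (d.na.get e.2) := fun q => by
    obtain ⟨e, he, M, hM, a, -⟩ := h.decomp ok (fun k => (hρ k).2) (mem_c.1 q.out.2)
    obtain ⟨i, rfl⟩ := List.mem_iff_get.1 he
    obtain ⟨j, rfl⟩ := List.mem_iff_get.1 hM
    exact ⟨(i, j), a⟩
  choose f hf using k
  refine (Nat.card_le_card_of_injective f fun q r e => ?_).trans (by simp)
  have := h.inv_mul_mem (hf q) (e ▸ hf r)
  rw [← q.out_eq', ← r.out_eq', QuotientGroup.eq, mem_subgroupOf]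
  simpa [mul_assoc] using this

end Cfsg.Agent.X9
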